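import Mathlib
import Cfsg.Agent.Lib.Helper99.TvCalc

/-!
# Lower unitriangular elements of the leading `4 × 4` block

A small calculus for matrices `1 + Σ_{j > k} a_{jk} E_{jk}` with `j, k ∈ {0,1,2,3}`, written with
rank one matrices, and the triple commutator identity that produces a transvection.
-/

set_option autoImplicit false

namespace Cfsg.Agent.Lib.Helper16.RU2

open Matrix Cfsg.Agent.Lib.Helper99

section Low4

variable {n : ℕ} {F : Type*} [Field F]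

/-- lower unitriangular elements of the leading `4 × 4` block -/
def low4 (n : ℕ) {F : Type*} [Field F] (a10 a20 a21 a30 a31 a32 : F) :
    Matrix (Fin n) (Fin n) F :=
  1 + vecMulVec (a10 • ev n F 1 + a20 • ev n F 2 + a30 • ev n F 3) (ev n F 0)
    + vecMulVec (a21 • ev n F 2 + a31 • ev n F 3) (ev n F 1)
    + vecMulVec (a32 • ev n F 3) (ev n F 2)

theorem three_mul (x0 x1 x2 y0 y1 y2 p0 p1 p2 : Fin n → F) :
    (1 + vecMulVec x0 p0 + vecMulVec x1 p1 + vecMulVec x2 p2) *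
      (1 + vecMulVec y0 p0 + vecMulVec y1 p1 + vecMulVec y2 p2) =
    1 + vecMulVec (x0 + y0 + ((p0 ⬝ᵥ y0) • x0 + (p1 ⬝ᵥ y0) • x1 + (p2 ⬝ᵥ y0) • x2)) p0
      + vecMulVec (x1 + y1 + ((p0 ⬝ᵥ y1) • x0 + (p1 ⬝ᵥ y1) • x1 + (p2 ⬝ᵥ y1) • x2)) p1
      + vecMulVec (x2 + y2 + ((p0 ⬝ᵥ y2) • x0 + (p1 ⬝ᵥ y2) • x1 + (p2 ⬝ᵥ y2) • x2)) p2 := by
  simp only [mul_add, add_mul, mul_one, one_mul, vecMulVec_mul_vecMulVec, add_vecMulVec,
    smul_vecMulVec, vecMulVec_smul]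
  abel

theorem low4_congr {a10 a20 a21 a30 a31 a32 b10 b20 b21 b30 b31 b32 : F}
    (h1 : a10 = b10) (h2 : a20 = b20) (h3 : a21 = b21) (h4 : a30 = b30) (h5 : a31 = b31)
    (h6 : a32 = b32) :
    low4 n a10 a20 a21 a30 a31 a32 = low4 n b10 b20 b21 b30 b31 b32 := by
  subst h1 h2 h3 h4 h5 h6; rfl

theorem low4_zero : low4 n (0 : F) 0 0 0 0 0 = 1 := by
  simp [low4]

theorem low4_mul (hn : 4 ≤ n) (a10 a20 a21 a30 a31 a32 b10 b20 b21 b30 b31 b32 : F) :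
    low4 n a10 a20 a21 a30 a31 a32 * low4 n b10 b20 b21 b30 b31 b32 =
      low4 n (a10 + b10) (a20 + b20 + a21 * b10) (a21 + b21)
        (a30 + b30 + a31 * b10 + a32 * b20) (a31 + b31 + a32 * b21) (a32 + b32) := by
  have s0 : ev n F 0 ⬝ᵥ ev n F 0 = 1 := ev_dot_self (by omega)
  have s1 : ev n F 1 ⬝ᵥ ev n F 1 = 1 := ev_dot_self (by omega)
  have s2 : ev n F 2 ⬝ᵥ ev n F 2 = 1 := ev_dot_self (by omega)
  have d01 : ev n F 0 ⬝ᵥ ev n F 1 = 0 := ev_dot_ne (by norm_num)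
  have d02 : ev n F 0 ⬝ᵥ ev n F 2 = 0 := ev_dot_ne (by norm_num)
  have d03 : ev n F 0 ⬝ᵥ ev n F 3 = 0 := ev_dot_ne (by norm_num)
  have d12 : ev n F 1 ⬝ᵥ ev n F 2 = 0 := ev_dot_ne (by norm_num)
  have d13 : ev n F 1 ⬝ᵥ ev n F 3 = 0 := ev_dot_ne (by norm_num)
  have d23 : ev n F 2 ⬝ᵥ ev n F 3 = 0 := ev_dot_ne (by norm_num)
  have d10 : ev n F 1 ⬝ᵥ ev n F 0 = 0 := ev_dot_ne (by norm_num)
  have d20 : ev n F 2 ⬝ᵥ ev n F 0 = 0 := ev_dot_ne (by norm_num)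
  have d21 : ev n F 2 ⬝ᵥ ev n F 1 = 0 := ev_dot_ne (by norm_num)
  unfold low4
  rw [three_mul]
  simp only [dotProduct_add, dotProduct_smul, s0, s1, s2, d01, d02, d03, d12, d13, d23,
    d10, d20, d21, smul_eq_mul, mul_one, mul_zero, add_zero, zero_add, zero_smul]
  have e0 : a10 • ev n F 1 + a20 • ev n F 2 + a30 • ev n F 3 +
      (b10 • ev n F 1 + b20 • ev n F 2 + b30 • ev n F 3) +
      (b10 • (a21 • ev n F 2 + a31 • ev n F 3) + b20 • a32 • ev n F 3) =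
      (a10 + b10) • ev n F 1 + (a20 + b20 + a21 * b10) • ev n F 2 +
        (a30 + b30 + a31 * b10 + a32 * b20) • ev n F 3 := by
    module
  have e1 : a21 • ev n F 2 + a31 • ev n F 3 + (b21 • ev n F 2 + b31 • ev n F 3) +
      b21 • a32 • ev n F 3 = (a21 + b21) • ev n F 2 + (a31 + b31 + a32 * b21) • ev n F 3 := by
    module
  have e2 : a32 • ev n F 3 + b32 • ev n F 3 = (a32 + b32) • ev n F 3 := by
    module
  rw [e0, e1, e2]

theorem tvm_low1 (c : F) : tvm (c • ev n F 1) (ev n F 0) = low4 n c 0 0 0 0 0 := by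
  simp [low4, tvm]

theorem tvm_low2 (c α β : F) :
    tvm (c • ev n F 2) (α • ev n F 0 + β • ev n F 1) = low4 n 0 (c * α) (c * β) 0 0 0 := by
  simp only [low4, tvm, zero_smul, add_zero, zero_add, vecMulVec_add, vecMulVec_smul,
    smul_vecMulVec, zero_vecMulVec, smul_smul]
  module

theorem tvm_low3 (c α β γ : F) :
    tvm (c • ev n F 3) (α • ev n F 0 + β • ev n F 1 + γ • ev n F 2) =
      low4 n 0 0 0 (c * α) (c * β) (c * γ) := by
  simp only [low4, tvm, zero_smul, add_zero, zero_add, vecMulVec_add, vecMulVec_smul,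
    smul_vecMulVec, zero_vecMulVec, smul_smul]
  module

theorem low4_tvm (c : F) : low4 n 0 0 0 c 0 0 = tvm (c • ev n F 3) (ev n F 0) := by
  simp [low4, tvm]

/-- the triple commutator `[[b, b₁], b]` is a transvection -/
theorem tau_mat (hn : 4 ≤ n) (θ y0 z : F) :
    (low4 n θ (-(θ * y0)) (-θ) 0 0 0 * low4 n 0 (θ * y0) θ (-(θ * z)) (-(θ * y0)) (-θ) *
        low4 n (-θ) (θ * y0 - θ * θ) θ 0 0 0 *
        low4 n 0 (-(θ * y0)) (-θ) (θ * z - θ * θ * y0) (θ * y0 - θ * θ) θ) *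
      low4 n θ (-(θ * y0)) (-θ) 0 0 0 *
      (low4 n 0 (θ * y0) θ (-(θ * z)) (-(θ * y0)) (-θ) * low4 n θ (-(θ * y0)) (-θ) 0 0 0 *
        low4 n 0 (-(θ * y0)) (-θ) (θ * z - θ * θ * y0) (θ * y0 - θ * θ) θ *
        low4 n (-θ) (θ * y0 - θ * θ) θ 0 0 0) *
      low4 n (-θ) (θ * y0 - θ * θ) θ 0 0 0 = low4 n 0 0 0 (-(θ * θ * θ)) 0 0 := by
  simp only [low4_mul hn]
  apply low4_congr <;> ring

theorem b_mul_inv (hn : 4 ≤ n) (θ y0 : F) :
    low4 n θ (-(θ * y0)) (-θ) 0 0 0 * low4 n (-θ) (θ * y0 - θ * θ) θ 0 0 0 = 1 := by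
  rw [low4_mul hn, ← low4_zero]
  apply low4_congr <;> ring

theorem b_inv_mul (hn : 4 ≤ n) (θ y0 : F) :
    low4 n (-θ) (θ * y0 - θ * θ) θ 0 0 0 * low4 n θ (-(θ * y0)) (-θ) 0 0 0 = 1 := by
  rw [low4_mul hn, ← low4_zero]
  apply low4_congr <;> ring

theorem b1_mul_inv (hn : 4 ≤ n) (θ y0 z : F) :
    low4 n 0 (θ * y0) θ (-(θ * z)) (-(θ * y0)) (-θ) *
      low4 n 0 (-(θ * y0)) (-θ) (θ * z - θ * θ * y0) (θ * y0 - θ * θ) θ = 1 := by
  rw [low4_mul hn, ← low4_zero]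
  apply low4_congr <;> ring

theorem b1_inv_mul (hn : 4 ≤ n) (θ y0 z : F) :
    low4 n 0 (-(θ * y0)) (-θ) (θ * z - θ * θ * y0) (θ * y0 - θ * θ) θ *
      low4 n 0 (θ * y0) θ (-(θ * z)) (-(θ * y0)) (-θ) = 1 := by
  rw [low4_mul hn, ← low4_zero]
  apply low4_congr <;> ring

end Low4

end Cfsg.Agent.Lib.Helper16.RU2
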