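import Mathlib
import Cfsg.Agent.Lib.Helper16.RU2.Low4
import Cfsg.Agent.Lib.Helper99.TvMat

/-!
# Generation by a companion type element and a conjugate

A subgroup `H` of `SL_n(F)`, `n ≥ 4`, containing a companion type element `C` and the element
`B = x₁₀(θ) · C x₁₀(-θ) C⁻¹`.  We produce the transvection `x₃₀(-θ³)` and show that `H` is
everything as soon as `H` contains all `x₃₀(c)`.
-/

set_option autoImplicit false

namespace Cfsg.Agent.Lib.Helper16.RU2

open Matrix Cfsg.Agent.Lib.Helper99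

section Core

variable {n : ℕ} {F : Type*} [Field F]

theorem sl_inv_coe {g : Matrix.SpecialLinearGroup (Fin n) F} {X : Matrix (Fin n) (Fin n) F}
    (h : (g : Matrix (Fin n) (Fin n) F) * X = 1) :
    ((g⁻¹ : Matrix.SpecialLinearGroup (Fin n) F) : Matrix (Fin n) (Fin n) F) = X := by
  calc ((g⁻¹ : Matrix.SpecialLinearGroup (Fin n) F) : Matrix (Fin n) (Fin n) F)
      = ((g⁻¹ : Matrix.SpecialLinearGroup (Fin n) F) : Matrix (Fin n) (Fin n) F) *
          ((g : Matrix (Fin n) (Fin n) F) * X) := by rw [h, mul_one]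
    _ = X := by
      rw [← mul_assoc, ← Matrix.SpecialLinearGroup.coe_mul, inv_mul_cancel, Matrix.SpecialLinearGroup.coe_one,
        one_mul]

theorem conj_tvm (a : Matrix.SpecialLinearGroup (Fin n) F) (v φ : Fin n → F) :
    (a : Matrix (Fin n) (Fin n) F) * tvm v φ *
        ((a⁻¹ : Matrix.SpecialLinearGroup (Fin n) F) : Matrix (Fin n) (Fin n) F) =
      tvm ((a : Matrix (Fin n) (Fin n) F) *ᵥ v)
        (φ ᵥ* ((a⁻¹ : Matrix.SpecialLinearGroup (Fin n) F) : Matrix (Fin n) (Fin n) F)) := by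
  rw [tvm, tvm, mul_add, add_mul, mul_one, mul_vecMulVec, vecMulVec_mul]
  congr 1
  rw [← Matrix.SpecialLinearGroup.coe_mul, mul_inv_cancel, Matrix.SpecialLinearGroup.coe_one]

theorem conj_mul_tvm (a : Matrix.SpecialLinearGroup (Fin n) F) (v φ w ψ : Fin n → F) :
    (a : Matrix (Fin n) (Fin n) F) * (tvm v φ * tvm w ψ) *
        ((a⁻¹ : Matrix.SpecialLinearGroup (Fin n) F) : Matrix (Fin n) (Fin n) F) =
      tvm ((a : Matrix (Fin n) (Fin n) F) *ᵥ v)
          (φ ᵥ* ((a⁻¹ : Matrix.SpecialLinearGroup (Fin n) F) : Matrix (Fin n) (Fin n) F)) *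
        tvm ((a : Matrix (Fin n) (Fin n) F) *ᵥ w)
          (ψ ᵥ* ((a⁻¹ : Matrix.SpecialLinearGroup (Fin n) F) : Matrix (Fin n) (Fin n) F)) := by
  have hI : ∀ X : Matrix (Fin n) (Fin n) F,
      ((a⁻¹ : Matrix.SpecialLinearGroup (Fin n) F) : Matrix (Fin n) (Fin n) F) *
        ((a : Matrix (Fin n) (Fin n) F) * X) = X := by
    intro X
    rw [← mul_assoc, ← Matrix.SpecialLinearGroup.coe_mul, inv_mul_cancel, Matrix.SpecialLinearGroup.coe_one,
      one_mul]
  rw [← conj_tvm, ← conj_tvm]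
  simp only [mul_assoc, hI]

/-- the row vectors `e₀ C⁻ᵏ` -/
def phi (C : Matrix.SpecialLinearGroup (Fin n) F) : ℕ → (Fin n → F)
  | 0 => ev n F 0
  | k + 1 => phi C k ᵥ* ((C⁻¹ : Matrix.SpecialLinearGroup (Fin n) F) : Matrix (Fin n) (Fin n) F)

/-- the configuration: a subgroup containing a companion type element `C` and the element `B` -/
structure Cfg (H : Subgroup (Matrix.SpecialLinearGroup (Fin n) F)) (C : Matrix.SpecialLinearGroup (Fin n) F)
    (y : ℕ → ℤ) (θ : F) : Prop where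
  hn : 4 ≤ n
  hC : C ∈ H
  col : ∀ k, k + 1 < n → (C : Matrix (Fin n) (Fin n) F) *ᵥ ev n F k = ev n F (k + 1)
  row : ∀ j, j < n →
    ev n F j ᵥ* ((C⁻¹ : Matrix.SpecialLinearGroup (Fin n) F) : Matrix (Fin n) (Fin n) F) =
      ((y j : ℤ) : F) • ev n F 0 + ev n F (j + 1)
  hy : y (n - 1) = 1 ∨ y (n - 1) = -1
  hθ : θ ≠ 0
  hB : ∃ b ∈ H, (b : Matrix (Fin n) (Fin n) F) =
    tvm (θ • ev n F 1) (ev n F 0) *
      tvm (-(θ • ev n F 2)) (((y 0 : ℤ) : F) • ev n F 0 + ev n F 1)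

namespace Cfg

variable {H : Subgroup (Matrix.SpecialLinearGroup (Fin n) F)} {C : Matrix.SpecialLinearGroup (Fin n) F}
  {y : ℕ → ℤ} {θ : F} (cfg : Cfg H C y θ)

include cfg

theorem eps_sq : ((y (n - 1) : ℤ) : F) * ((y (n - 1) : ℤ) : F) = 1 := by
  rcases cfg.hy with h | h <;> rw [h] <;> simp

theorem conjC {v φ : Fin n → F} (h : TV H v φ) :
    TV H ((C : Matrix (Fin n) (Fin n) F) *ᵥ v)
      (φ ᵥ* ((C⁻¹ : Matrix.SpecialLinearGroup (Fin n) F) : Matrix (Fin n) (Fin n) F)) :=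
  h.conj cfg.hC

theorem conjCi {v φ : Fin n → F} (h : TV H v φ) :
    TV H (((C⁻¹ : Matrix.SpecialLinearGroup (Fin n) F) : Matrix (Fin n) (Fin n) F) *ᵥ v)
      (φ ᵥ* (C : Matrix (Fin n) (Fin n) F)) := by
  have h1 := h.conj (inv_mem cfg.hC)
  rw [inv_inv] at h1
  exact h1

theorem coli (k : ℕ) (hk : k + 1 < n) :
    ((C⁻¹ : Matrix.SpecialLinearGroup (Fin n) F) : Matrix (Fin n) (Fin n) F) *ᵥ ev n F (k + 1) =
      ev n F k := by
  rw [← cfg.col k hk]
  exact sl_inv_mulVec C _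

theorem row0C : ev n F 0 ᵥ* (C : Matrix (Fin n) (Fin n) F) =
    ((y (n - 1) : ℤ) : F) • ev n F (n - 1) := by
  have hn := cfg.hn
  have h1 := cfg.row (n - 1) (by omega)
  have h2 : n - 1 + 1 = n := by omega
  rw [h2, ev_eq_zero (le_refl n), add_zero] at h1
  have h3 : (ev n F (n - 1) ᵥ*
      ((C⁻¹ : Matrix.SpecialLinearGroup (Fin n) F) : Matrix (Fin n) (Fin n) F)) ᵥ*
      (C : Matrix (Fin n) (Fin n) F) = ev n F (n - 1) := by
    have := sl_vecMul_inv C⁻¹ (ev n F (n - 1))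
    rw [inv_inv] at this
    exact this
  rw [h1, smul_vecMul] at h3
  rw [← h3, smul_smul, cfg.eps_sq, one_smul]

theorem rowLast : (((y (n - 1) : ℤ) : F) • ev n F (n - 1)) ᵥ*
    ((C⁻¹ : Matrix.SpecialLinearGroup (Fin n) F) : Matrix (Fin n) (Fin n) F) = ev n F 0 := by
  have hn := cfg.hn
  have h1 := cfg.row (n - 1) (by omega)
  have h2 : n - 1 + 1 = n := by omega
  rw [h2, ev_eq_zero (le_refl n), add_zero] at h1
  rw [smul_vecMul, h1, smul_smul, cfg.eps_sq, one_smul]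

theorem phi_dot (k l : ℕ) (hkl : k ≤ l) (hl : l < n) :
    phi C k ⬝ᵥ ev n F l = if l = k then 1 else 0 := by
  induction k generalizing l with
  | zero =>
    show ev n F 0 ⬝ᵥ ev n F l = _
    by_cases h : l = 0
    · subst h; rw [ev_dot_self hl]; simp
    · rw [ev_dot_ne (Ne.symm h), if_neg h]
  | succ k ih =>
    obtain ⟨l', rfl⟩ : ∃ l', l = l' + 1 := ⟨l - 1, by omega⟩
    show (phi C k ᵥ* ((C⁻¹ : Matrix.SpecialLinearGroup (Fin n) F) : Matrix (Fin n) (Fin n) F)) ⬝ᵥ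
      ev n F (l' + 1) = _
    rw [← cfg.col l' hl, ← dotProduct_mulVec, sl_inv_mulVec, ih l' (by omega) (by omega)]
    simp

theorem T_up {j i : ℕ} {c : F} (hj : j + 1 < n) (h : TV H (c • ev n F j) (phi C i)) :
    TV H (c • ev n F (j + 1)) (phi C (i + 1)) := by
  have h1 := cfg.conjC h
  rw [mulVec_smul, cfg.col j hj] at h1
  exact h1

theorem T_down {j i : ℕ} {c : F} (hj : j + 1 < n)
    (h : TV H (c • ev n F (j + 1)) (phi C (i + 1))) : TV H (c • ev n F j) (phi C i) := by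
  have h1 := cfg.conjCi h
  rw [mulVec_smul, cfg.coli j hj] at h1
  have h2 : phi C (i + 1) ᵥ* (C : Matrix (Fin n) (Fin n) F) = phi C i := by
    have := sl_vecMul_inv C⁻¹ (phi C i)
    rw [inv_inv] at this
    exact this
  rw [h2] at h1
  exact h1

theorem T_shift_up {h : ℕ} {c : F} (k : ℕ) (hk : h + k < n)
    (hc : TV H (c • ev n F h) (ev n F 0)) : TV H (c • ev n F (h + k)) (phi C k) := by
  induction k with
  | zero => exact hc
  | succ k ih => exact cfg.T_up (by omega) (ih (by omega))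

theorem T_shift_down {h : ℕ} {c : F} (k : ℕ) (hk : h + k < n)
    (hc : TV H (c • ev n F (h + k)) (phi C k)) : TV H (c • ev n F h) (ev n F 0) := by
  induction k with
  | zero => exact hc
  | succ k ih => exact ih (by omega) (cfg.T_down (by omega) hc)

/-- the wrap-around commutator rule -/
theorem R2 {a b : ℕ} {c d : F} (ha : a < n) (hb : b < n) (hab : n + 1 ≤ a + b)
    (hc : TV H (c • ev n F a) (ev n F 0)) (hd : TV H (d • ev n F b) (ev n F 0)) :
    TV H ((((y (n - 1) : ℤ) : F) * d * c) • ev n F (a + b - n)) (ev n F 0) := by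
  obtain ⟨a', rfl⟩ : ∃ a', a = a' + 1 := ⟨a - 1, by omega⟩
  have h1 := cfg.conjCi hc
  rw [mulVec_smul, cfg.coli a' ha, cfg.row0C] at h1
  have h2 := cfg.T_shift_up (n - 1 - b) (by omega) hd
  have e1 : b + (n - 1 - b) = n - 1 := by omega
  rw [e1] at h2
  have h3 := h1.comm h2 (by
    rw [dotProduct_smul, cfg.phi_dot (n - 1 - b) a' (by omega) (by omega), if_neg (by omega),
      smul_zero])
  have e3 : (((y (n - 1) : ℤ) : F) • ev n F (n - 1)) ⬝ᵥ (d • ev n F (n - 1)) =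
      ((y (n - 1) : ℤ) : F) * d := by
    rw [smul_dotProduct, dotProduct_smul, ev_dot_self (by omega), smul_eq_mul, smul_eq_mul,
      mul_one]
  rw [e3, smul_smul] at h3
  have e2 : a' = (a' + 1 + b - n) + (n - 1 - b) := by omega
  rw [e2] at h3
  exact cfg.T_shift_down (n - 1 - b) (by omega) h3

/-- multiplication by `θ` moves up one step -/
theorem R3 {h : ℕ} {c : F} (h1 : 1 ≤ h) (hh : h + 1 < n)
    (hc : TV H (c • ev n F h) (ev n F 0)) : TV H ((θ * c) • ev n F (h + 1)) (ev n F 0) := by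
  obtain ⟨b, hb, eb⟩ := cfg.hB
  have hn := cfg.hn
  obtain ⟨φ1, hφ1⟩ : ∃ φ1 : Fin n → F, φ1 = ((y 0 : ℤ) : F) • ev n F 0 + ev n F 1 := ⟨_, rfl⟩
  rw [← hφ1] at eb
  have t1 : TV H (c • ev n F (h + 1)) φ1 := by
    have := cfg.conjC hc
    rw [mulVec_smul, cfg.col h hh, cfg.row 0 (by omega), ← hφ1] at this
    exact this
  have d1 : φ1 ⬝ᵥ ev n F (h + 1) = 0 := by
    rw [hφ1, add_dotProduct, smul_dotProduct, ev_dot_ne (by omega), ev_dot_ne (by omega)]
    simp
  have d2 : φ1 ⬝ᵥ ev n F 2 = 0 := by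
    rw [hφ1, add_dotProduct, smul_dotProduct, ev_dot_ne (by omega), ev_dot_ne (by omega)]
    simp
  have d3 : φ1 ⬝ᵥ ev n F 1 = 1 := by
    rw [hφ1, add_dotProduct, smul_dotProduct, ev_dot_ne (by omega), ev_dot_self (by omega)]
    simp
  have e1 : (b : Matrix (Fin n) (Fin n) F) *ᵥ ev n F (h + 1) = ev n F (h + 1) := by
    rw [eb, ← mulVec_mulVec]
    have a1 : tvm (-(θ • ev n F 2)) φ1 *ᵥ ev n F (h + 1) = ev n F (h + 1) := by
      rw [tvm, add_mulVec, one_mulVec, vecMulVec_mulVec, d1]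
      simp
    have a2 : tvm (θ • ev n F 1) (ev n F 0) *ᵥ ev n F (h + 1) = ev n F (h + 1) := by
      rw [tvm, add_mulVec, one_mulVec, vecMulVec_mulVec, ev_dot_ne (by omega)]
      simp
    rw [a1, a2]
  have e2 : (φ1 - θ • ev n F 0) ᵥ* (b : Matrix (Fin n) (Fin n) F) = φ1 := by
    rw [eb, ← vecMul_vecMul]
    have a1 : (φ1 - θ • ev n F 0) ᵥ* tvm (θ • ev n F 1) (ev n F 0) = φ1 := by
      rw [tvm, vecMul_add, vecMul_one, vecMul_vecMulVec, sub_dotProduct, dotProduct_smul, d3,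
        smul_dotProduct, dotProduct_smul, ev_dot_ne (by omega)]
      simp
    have a2 : φ1 ᵥ* tvm (-(θ • ev n F 2)) φ1 = φ1 := by
      rw [tvm, vecMul_add, vecMul_one, vecMul_vecMulVec, dotProduct_neg, dotProduct_smul, d2]
      simp
    rw [a1, a2]
  have e3 : φ1 ᵥ* ((b⁻¹ : Matrix.SpecialLinearGroup (Fin n) F) : Matrix (Fin n) (Fin n) F) =
      φ1 - θ • ev n F 0 := by
    conv_lhs => rw [← e2]
    exact sl_vecMul_inv b _
  have h2 := t1.conj hb
  rw [mulVec_smul, e1, e3] at h2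
  have h3 := h2.sub_right t1
  rw [sub_sub_cancel_left] at h3
  have h4 := h3.neg_right
  rw [neg_neg] at h4
  have h5 := h4.smul_swap
  rw [smul_smul] at h5
  exact h5

theorem R3pow {h : ℕ} {c : F} (k : ℕ) (h1 : 1 ≤ h) (hk : h + k < n)
    (hc : TV H (c • ev n F h) (ev n F 0)) : TV H ((θ ^ k * c) • ev n F (h + k)) (ev n F 0) := by
  induction k with
  | zero => rw [pow_zero, one_mul]; exact hc
  | succ k ih =>
    have h2 := cfg.R3 (by omega) (by omega) (ih (by omega))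
    rw [← mul_assoc, ← pow_succ'] at h2
    exact h2

/-- the triple commutator gives a transvection -/
theorem tau : TV H ((-(θ * θ * θ)) • ev n F 3) (ev n F 0) := by
  obtain ⟨b, hb, eb⟩ := cfg.hB
  have hn := cfg.hn
  obtain ⟨y0, hy0⟩ : ∃ y0 : F, y0 = ((y 0 : ℤ) : F) := ⟨_, rfl⟩
  obtain ⟨y1, hy1⟩ : ∃ y1 : F, y1 = ((y 1 : ℤ) : F) := ⟨_, rfl⟩
  have r0 := cfg.row 0 (by omega)
  have r1 := cfg.row 1 (by omega)
  rw [← hy0] at r0 eb
  rw [← hy1] at r1
  obtain ⟨b1, hb1⟩ : ∃ b1 : Matrix.SpecialLinearGroup (Fin n) F, b1 = C * b * C⁻¹ := ⟨_, rfl⟩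
  have hb1H : b1 ∈ H := by
    rw [hb1]; exact mul_mem (mul_mem cfg.hC hb) (inv_mem cfg.hC)
  have mb : (b : Matrix (Fin n) (Fin n) F) = low4 n θ (-(θ * y0)) (-θ) 0 0 0 := by
    rw [eb]
    have e1 : tvm (θ • ev n F 1) (ev n F 0) = low4 n θ 0 0 0 0 0 := tvm_low1 θ
    have e2 : tvm (-(θ • ev n F 2)) (y0 • ev n F 0 + ev n F 1) =
        low4 n 0 (-(θ * y0)) (-θ) 0 0 0 := by
      have := tvm_low2 (n := n) (-θ) y0 (1 : F)
      rw [one_smul, neg_smul] at this
      rw [this]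
      apply low4_congr <;> ring
    rw [e1, e2, low4_mul hn]
    apply low4_congr <;> ring
  have mb1 : (b1 : Matrix (Fin n) (Fin n) F) =
      low4 n 0 (θ * y0) θ (-(θ * (y0 * y0 + y1))) (-(θ * y0)) (-θ) := by
    rw [hb1, Matrix.SpecialLinearGroup.coe_mul, Matrix.SpecialLinearGroup.coe_mul, eb, conj_mul_tvm,
      mulVec_smul, cfg.col 1 (by omega), r0, mulVec_neg, mulVec_smul, cfg.col 2 (by omega),
      add_vecMul, smul_vecMul, r0, r1]
    have e1 : tvm (θ • ev n F (1 + 1)) (y0 • ev n F 0 + ev n F 1) =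
        low4 n 0 (θ * y0) θ 0 0 0 := by
      have := tvm_low2 (n := n) θ y0 (1 : F)
      rw [one_smul] at this
      rw [this]
      apply low4_congr <;> ring
    have e2 : tvm (-(θ • ev n F (2 + 1)))
        (y0 • (y0 • ev n F 0 + ev n F 1) + (y1 • ev n F 0 + ev n F (1 + 1))) =
        low4 n 0 0 0 (-(θ * (y0 * y0 + y1))) (-(θ * y0)) (-θ) := by
      have h1 : y0 • (y0 • ev n F 0 + ev n F 1) + (y1 • ev n F 0 + ev n F (1 + 1)) =
          (y0 * y0 + y1) • ev n F 0 + y0 • ev n F 1 + (1 : F) • ev n F 2 := by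
        module
      have := tvm_low3 (n := n) (-θ) (y0 * y0 + y1) y0 (1 : F)
      rw [neg_smul] at this
      rw [h1, this]
      apply low4_congr <;> ring
    rw [e1, e2, low4_mul hn]
    apply low4_congr <;> ring
  have mbi : ((b⁻¹ : Matrix.SpecialLinearGroup (Fin n) F) : Matrix (Fin n) (Fin n) F) =
      low4 n (-θ) (θ * y0 - θ * θ) θ 0 0 0 :=
    sl_inv_coe (by rw [mb]; exact b_mul_inv hn θ y0)
  have mb1i : ((b1⁻¹ : Matrix.SpecialLinearGroup (Fin n) F) : Matrix (Fin n) (Fin n) F) =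
      low4 n 0 (-(θ * y0)) (-θ) (θ * (y0 * y0 + y1) - θ * θ * y0) (θ * y0 - θ * θ) θ :=
    sl_inv_coe (by rw [mb1]; exact b1_mul_inv hn θ y0 (y0 * y0 + y1))
  refine ⟨(b * b1 * b⁻¹ * b1⁻¹) * b * (b1 * b * b1⁻¹ * b⁻¹) * b⁻¹, ?_, ?_⟩
  · have hbi := inv_mem hb
    have hb1i := inv_mem hb1H
    exact mul_mem (mul_mem (mul_mem (mul_mem (mul_mem (mul_mem hb hb1H) hbi) hb1i) hb)
      (mul_mem (mul_mem (mul_mem hb1H hb) hb1i) hbi)) hbi
  · simp only [Matrix.SpecialLinearGroup.coe_mul]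
    rw [mb, mb1, mbi, mb1i, tau_mat hn, low4_tvm]

/-- if `H` contains all `x₃₀(c)` then `H` is everything -/
theorem top_of_A3 (h3 : ∀ c : F, TV H (c • ev n F 3) (ev n F 0)) : H = ⊤ := by
  have hn := cfg.hn
  have hθ := cfg.hθ
  obtain ⟨ε, hε⟩ : ∃ ε : F, ε = ((y (n - 1) : ℤ) : F) := ⟨_, rfl⟩
  have hεε : ε * ε = 1 := by rw [hε]; exact cfg.eps_sq
  have K3 : ∀ h, 3 ≤ h → h < n → ∀ c : F, TV H (c • ev n F h) (ev n F 0) := by
    intro h hh
    induction h, hh using Nat.le_induction with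
    | base => intro _ c; exact h3 c
    | succ h hh ih =>
      intro hlt c
      have h1 := cfg.R3 (by omega) hlt (ih (by omega) (θ⁻¹ * c))
      rw [← mul_assoc, mul_inv_cancel₀ hθ, one_mul] at h1
      exact h1
  have K2 : ∀ c : F, TV H (c • ev n F 2) (ev n F 0) := by
    intro c
    have h1 := cfg.R2 (a := n - 1) (b := 3) (by omega) (by omega) (by omega)
      (K3 (n - 1) (by omega) (by omega) (ε * c)) (h3 1)
    have e1 : n - 1 + 3 - n = 2 := by omega
    have e2 : ε * 1 * (ε * c) = c := by rw [mul_one, ← mul_assoc, hεε, one_mul]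
    rw [e1, ← hε, e2] at h1
    exact h1
  have K1 : ∀ c : F, TV H (c • ev n F 1) (ev n F 0) := by
    intro c
    have h1 := cfg.R2 (a := n - 1) (b := 2) (by omega) (by omega) (by omega)
      (K3 (n - 1) (by omega) (by omega) (ε * c)) (K2 1)
    have e1 : n - 1 + 2 - n = 1 := by omega
    have e2 : ε * 1 * (ε * c) = c := by rw [mul_one, ← mul_assoc, hεε, one_mul]
    rw [e1, ← hε, e2] at h1
    exact h1
  have K : ∀ h, 1 ≤ h → h < n → ∀ c : F, TV H (c • ev n F h) (ev n F 0) := by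
    intro h h1 hlt c
    rcases Nat.lt_or_ge h 3 with h' | h'
    · interval_cases h
      · exact K1 c
      · exact K2 c
    · exact K3 h h' hlt c
  have L : ∀ j h, 1 ≤ h → h + j < n → ∀ c : F, TV H (c • ev n F (h + j)) (ev n F j) := by
    intro j
    induction j with
    | zero => intro h h1 hlt c; exact K h h1 hlt c
    | succ j ih =>
      intro h h1 hlt c
      have h2 := cfg.conjC (ih h h1 (by omega) c)
      rw [mulVec_smul, cfg.col (h + j) (by omega), cfg.row j (by omega)] at h2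
      have h4 := h2.sub_right ((K (h + (j + 1)) (by omega) hlt c).zsmul_right (y j))
      rw [add_sub_cancel_left] at h4
      exact h4
  have Lw : ∀ i j, j < i → i < n → ∀ c : F, TV H (c • ev n F i) (ev n F j) := by
    intro i j hji hi c
    have h1 := L j (i - j) (by omega) (by omega) c
    rw [Nat.sub_add_cancel (by omega)] at h1
    exact h1
  have Up1 : ∀ i, i + 1 < n → ∀ c : F, TV H (c • ev n F i) (ev n F (n - 1)) := by
    intro i hi c
    have h1 := cfg.conjCi (K (i + 1) (by omega) hi (ε * c))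
    rw [mulVec_smul, cfg.coli i hi, cfg.row0C, ← hε] at h1
    have h2 := h1.smul_swap
    rw [smul_smul, ← mul_assoc, hεε, one_mul] at h2
    exact h2
  have Up : ∀ i j, i < j → j < n → ∀ c : F, TV H (c • ev n F i) (ev n F j) := by
    intro i j hij hj c
    by_cases hj' : j = n - 1
    · subst hj'; exact Up1 i (by omega) c
    · have h1 := (Up1 i (by omega) c).comm (Lw (n - 1) j (by omega) (by omega) 1) (by
        rw [dotProduct_smul, ev_dot_ne (by omega), smul_zero])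
      rw [one_smul, ev_dot_self (by omega), one_smul] at h1
      exact h1
  haveI : Nontrivial (Fin n) := Fin.nontrivial_iff_two_le.mpr (by omega)
  apply Cfsg.Agent.Lib.Helper5.eq_top_of_transvection_mem
  intro i j hij c
  have hij' : i.val ≠ j.val := fun h => hij (Fin.ext h)
  have key : TV H (c • ev n F i.val) (ev n F j.val) := by
    rcases Nat.lt_or_gt_of_ne hij' with h | h
    · exact Up i.val j.val h j.2 c
    · exact Lw i.val j.val h i.2 c
  obtain ⟨g, hg, eg⟩ := key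
  have : Matrix.SpecialLinearGroup.transvection hij c = g := by
    apply Subtype.ext
    rw [eg]
    exact transvection_eq_tvm hij c
  rw [this]; exact hg

/-- over a prime field the subgroup is everything -/
theorem top_of_prime [Fintype F] (hp : (Fintype.card F).Prime) : H = ⊤ := by
  have hθ := cfg.hθ
  apply cfg.top_of_A3
  intro c
  have ht : -(θ * θ * θ) ≠ 0 := neg_ne_zero.mpr (mul_ne_zero (mul_ne_zero hθ hθ) hθ)
  obtain ⟨z, hz⟩ : ∃ z : ℤ, (z : F) = c * (-(θ * θ * θ))⁻¹ := by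
    obtain ⟨w, hw⟩ := (ZMod.ringEquivOfPrime F hp rfl).surjective (c * (-(θ * θ * θ))⁻¹)
    haveI : NeZero (Fintype.card F) := ⟨hp.ne_zero⟩
    refine ⟨(ZMod.val w : ℤ), ?_⟩
    rw [← hw]
    have h2 : w = (((ZMod.val w : ℕ) : ℤ) : ZMod (Fintype.card F)) := by simp
    conv_rhs => rw [h2]
    rw [map_intCast]
  have h1 := (cfg.tau.zsmul_right z).smul_swap
  rw [smul_smul, hz, inv_mul_cancel_right₀ ht] at h1
  exact h1

end Cfg

end Core

end Cfsg.Agent.Lib.Helper16.RU2
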