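import Mathlib
import Cfsg.Agent.Lib.Helper16.RU2.Core

/-!
# The field step

With `θ` a generator of the multiplicative group, the set of multipliers of
`A₃ = {c | x₃₀(c) ∈ H}` is everything.
-/

set_option autoImplicit false

namespace Cfsg.Agent.Lib.Helper16.RU2

open Matrix Cfsg.Agent.Lib.Helper99

section FieldStep

variable {n : ℕ} {F : Type*} [Field F]

namespace Cfg

variable {H : Subgroup (Matrix.SpecialLinearGroup (Fin n) F)}
  {C : Matrix.SpecialLinearGroup (Fin n) F} {y : ℕ → ℤ} {θ : F} (cfg : Cfg H C y θ)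

include cfg

theorem phi_eq (q : ℕ) (hq : q < n) (hy0 : ∀ j, j < q → ((y j : ℤ) : F) = 0) :
    phi C q = ev n F q := by
  induction q with
  | zero => rfl
  | succ q ih =>
    show phi C q ᵥ* ((C⁻¹ : Matrix.SpecialLinearGroup (Fin n) F) : Matrix (Fin n) (Fin n) F) = _
    rw [ih (by omega) (fun j hj => hy0 j (by omega)), cfg.row q (by omega), hy0 q (by omega),
      zero_smul, zero_add]

/-- the rule breaking the grading -/
theorem RN {q : ℕ} {a b : F} (hq : q + 3 < n) (hy0 : ∀ j, j < q → ((y j : ℤ) : F) = 0)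
    (ha : TV H (a • ev n F 1) (ev n F 0)) (hb : TV H (b • ev n F 1) (ev n F 0)) :
    TV H ((b * ((y q : ℤ) : F) * a) • ev n F (q + 3)) (ev n F 0) := by
  have hn := cfg.hn
  have p1 : phi C (q + 1) = ((y q : ℤ) : F) • ev n F 0 + ev n F (q + 1) := by
    show phi C q ᵥ* ((C⁻¹ : Matrix.SpecialLinearGroup (Fin n) F) : Matrix (Fin n) (Fin n) F) = _
    rw [cfg.phi_eq q (by omega) hy0, cfg.row q (by omega)]
  have h1 := cfg.T_shift_up (q + 1) (by omega) ha
  rw [p1] at h1
  have c0 : ((C⁻¹ : Matrix.SpecialLinearGroup (Fin n) F) : Matrix (Fin n) (Fin n) F) *ᵥ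
      ev n F 1 = ev n F 0 := cfg.coli 0 (by omega)
  have h2 := cfg.conjCi hb
  rw [mulVec_smul, c0, cfg.row0C] at h2
  have h3 := h1.comm h2 (by
    rw [smul_dotProduct, dotProduct_smul, ev_dot_ne (by omega)]; simp)
  have e1 : (((y q : ℤ) : F) • ev n F 0 + ev n F (q + 1)) ⬝ᵥ (b • ev n F 0) =
      b * ((y q : ℤ) : F) := by
    rw [dotProduct_smul, add_dotProduct, smul_dotProduct, ev_dot_self (by omega),
      ev_dot_ne (by omega)]
    simp
  rw [e1, smul_smul] at h3
  have h4 := cfg.conjC h3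
  rw [mulVec_smul, cfg.col (1 + (q + 1)) (by omega), cfg.rowLast] at h4
  have e2 : 1 + (q + 1) + 1 = q + 3 := by omega
  rw [e2] at h4
  exact h4

/-- the field step -/
theorem top_of_gen [Fintype F] (hgen : ∀ x : F, x ≠ 0 → ∃ k : ℕ, x = θ ^ k)
    (q : ℕ) (hsurj : ∀ x : F, ∃ x' : F, x = x' ^ q)
    (hq : q = n ∨ (1 ≤ q ∧ q + 2 < n ∧ (∀ j, j + 1 < q → ((y j : ℤ) : F) = 0) ∧
      ((y (q - 1) : ℤ) : F) ≠ 0)) : H = ⊤ := by
  have hn := cfg.hn
  have hθ := cfg.hθ
  obtain ⟨ε, hε⟩ : ∃ ε : F, ε = ((y (n - 1) : ℤ) : F) := ⟨_, rfl⟩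
  have hεε : ε * ε = 1 := by rw [hε]; exact cfg.eps_sq
  have hε0 : ε ≠ 0 := by
    intro h; rw [h] at hεε; simp at hεε
  obtain ⟨t3, ht3⟩ : ∃ t3 : F, t3 = -(θ * θ * θ) := ⟨_, rfl⟩
  have ht30 : t3 ≠ 0 := by
    rw [ht3]; exact neg_ne_zero.mpr (mul_ne_zero (mul_ne_zero hθ hθ) hθ)
  have tau : TV H (t3 • ev n F 3) (ev n F 0) := by rw [ht3]; exact cfg.tau
  let S : F → Prop := fun r =>
    ∀ c : F, TV H (c • ev n F 3) (ev n F 0) → TV H ((r * c) • ev n F 3) (ev n F 0)
  have Smul : ∀ r s, S r → S s → S (r * s) := by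
    intro r s hr hs c hc
    have h1 := hr _ (hs c hc)
    rw [← mul_assoc] at h1
    exact h1
  have S1 : S 1 := by
    intro c hc
    rw [one_mul]; exact hc
  have Spow : ∀ r (k : ℕ), S r → S (r ^ k) := by
    intro r k hr
    induction k with
    | zero => rw [pow_zero]; exact S1
    | succ k ih => rw [pow_succ]; exact Smul _ _ ih hr
  have Sint : ∀ z : ℤ, S (z : F) := by
    intro z c hc
    have h1 := (hc.zsmul_right z).smul_swap
    rw [smul_smul] at h1
    exact h1
  have Sinv : ∀ r, r ≠ 0 → S r → S r⁻¹ := by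
    intro r hr0 hr
    have h1 : r ^ (Fintype.card F - 1) = 1 := FiniteField.pow_card_sub_one_eq_one r hr0
    have hc : 2 ≤ Fintype.card F := Fintype.one_lt_card
    have h3 : r * r ^ (Fintype.card F - 2) = 1 := by
      rw [← pow_succ', show Fintype.card F - 2 + 1 = Fintype.card F - 1 by omega, h1]
    have h2 : r⁻¹ = r ^ (Fintype.card F - 2) := inv_eq_of_mul_eq_one_right h3
    rw [h2]; exact Spow r _ hr
  have Sθn : S (θ ^ n) := by
    have h1 : S (θ * ε * t3 * θ ^ (n - 4)) := by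
      intro c hc
      have a1 := cfg.R3pow (n - 4) (by omega) (by omega) hc
      have e1 : 3 + (n - 4) = n - 1 := by omega
      rw [e1] at a1
      have a2 := cfg.R2 (a := n - 1) (b := 3) (by omega) (by omega) (by omega) a1 tau
      have e2 : n - 1 + 3 - n = 2 := by omega
      rw [e2, ← hε] at a2
      have a3 := cfg.R3 (by omega) (by omega) a2
      have e3 : θ * (ε * t3 * (θ ^ (n - 4) * c)) = θ * ε * t3 * θ ^ (n - 4) * c := by ring
      rw [e3] at a3
      exact a3
    have h2 : S (-ε) := by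
      have h := Sint (-(y (n - 1)))
      rw [Int.cast_neg, ← hε] at h
      exact h
    have h3 := Smul _ _ h2 h1
    have e4 : -ε * (θ * ε * t3 * θ ^ (n - 4)) = θ ^ n := by
      have e5 : θ ^ n = θ ^ (n - 4) * θ ^ 4 := by
        rw [← pow_add]; congr 1; omega
      rw [e5, ht3]
      linear_combination (θ ^ (n - 4) * θ ^ 4) * hεε
    rw [e4] at h3
    exact h3
  have Sθq : S (θ ^ q) := by
    rcases hq with hq | ⟨hq1, hq2, hy0, hyq⟩
    · rw [hq]; exact Sθn
    · obtain ⟨q', rfl⟩ : ∃ q', q = q' + 1 := ⟨q - 1, by omega⟩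
      have hy0' : ∀ j, j < q' → ((y j : ℤ) : F) = 0 := fun j hj => hy0 j (by omega)
      rw [Nat.add_sub_cancel] at hyq
      obtain ⟨yq, hyq'⟩ : ∃ yq : F, yq = ((y q' : ℤ) : F) := ⟨_, rfl⟩
      rw [← hyq'] at hyq
      obtain ⟨w, hw⟩ : ∃ w : F, w = θ ^ (n - 4) * t3 := ⟨_, rfl⟩
      have hw0 : w ≠ 0 := by rw [hw]; exact mul_ne_zero (pow_ne_zero _ hθ) ht30
      have Aw : TV H (w • ev n F (n - 1)) (ev n F 0) := by
        have a1 := cfg.R3pow (n - 4) (by omega) (by omega) tau
        have e1 : 3 + (n - 4) = n - 1 := by omega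
        rw [e1, ← hw] at a1
        exact a1
      have toA1 : ∀ c : F, TV H (c • ev n F 3) (ev n F 0) →
          TV H ((w * w * c) • ev n F 1) (ev n F 0) := by
        intro c hc
        have a1 := cfg.R2 (a := n - 1) (b := 3) (by omega) (by omega) (by omega) Aw hc
        have e1 : n - 1 + 3 - n = 2 := by omega
        rw [e1, ← hε] at a1
        have a2 := cfg.R2 (a := n - 1) (b := 2) (by omega) (by omega) (by omega) Aw a1
        have e2 : n - 1 + 2 - n = 1 := by omega
        rw [e2, ← hε] at a2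
        have e3 : ε * (ε * c * w) * w = w * w * c := by
          linear_combination (c * w * w) * hεε
        rw [e3] at a2
        exact a2
      obtain ⟨μ, hμ⟩ : ∃ μ : F, μ = θ * ε * t3 * θ ^ (n - (q' + 1) - 3) * (w * w * t3) * yq *
          (w * w) := ⟨_, rfl⟩
      have hμ0 : μ ≠ 0 := by
        rw [hμ]
        exact mul_ne_zero (mul_ne_zero (mul_ne_zero (mul_ne_zero (mul_ne_zero
          (mul_ne_zero hθ hε0) ht30) (pow_ne_zero _ hθ)) (mul_ne_zero (mul_ne_zero hw0 hw0) ht30))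
          hyq) (mul_ne_zero hw0 hw0)
      have h1 : S μ := by
        intro c hc
        have a1 := cfg.RN (q := q') (by omega) hy0' (toA1 c hc) (toA1 t3 tau)
        rw [← hyq'] at a1
        have a2 := cfg.R3pow (n - (q' + 1) - 3) (by omega) (by omega) a1
        have e1 : q' + 3 + (n - (q' + 1) - 3) = n - 1 := by omega
        rw [e1] at a2
        have a3 := cfg.R2 (a := n - 1) (b := 3) (by omega) (by omega) (by omega) a2 tau
        have e2 : n - 1 + 3 - n = 2 := by omega
        rw [e2, ← hε] at a3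
        have a4 := cfg.R3 (by omega) (by omega) a3
        have e3 : θ * (ε * t3 * (θ ^ (n - (q' + 1) - 3) * (w * w * t3 * yq * (w * w * c)))) =
            μ * c := by rw [hμ]; ring
        rw [e3] at a4
        exact a4
      have hX : θ ^ n = θ ^ (n - 4) * θ ^ 4 := by
        rw [← pow_add]; congr 1; omega
      have hZ : θ ^ n = θ ^ (n - (q' + 1) - 3) * θ ^ (q' + 1) * θ ^ 3 := by
        rw [← pow_add, ← pow_add]; congr 1; omega
      have key : θ ^ (q' + 1) * μ = ε * yq * (θ ^ n) ^ 5 := by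
        have h5 : (θ ^ n) ^ 5 = (θ ^ (n - 4) * θ ^ 4) ^ 4 *
            (θ ^ (n - (q' + 1) - 3) * θ ^ (q' + 1) * θ ^ 3) := by
          rw [← hX, ← hZ]; ring
        rw [h5, hμ, hw, ht3]; ring
      have h6 : θ ^ (q' + 1) = ε * yq * (θ ^ n) ^ 5 * μ⁻¹ :=
        (eq_mul_inv_iff_mul_eq₀ hμ0).mpr key
      rw [h6]
      have hSε : S ε := by
        have h := Sint (y (n - 1))
        rw [← hε] at h
        exact h
      have hSy : S yq := by
        have h := Sint (y q')
        rw [← hyq'] at h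
        exact h
      exact Smul _ _ (Smul _ _ (Smul _ _ hSε hSy) (Spow _ 5 Sθn)) (Sinv μ hμ0 h1)
  have Sall : ∀ x : F, x ≠ 0 → S x := by
    intro x hx
    obtain ⟨x', rfl⟩ := hsurj x
    by_cases hx' : x' = 0
    · rcases Nat.eq_zero_or_pos q with h0 | hpos
      · rw [h0, pow_zero]; exact S1
      · exfalso; apply hx; rw [hx', zero_pow (by omega)]
    · obtain ⟨k, rfl⟩ := hgen x' hx'
      rw [← pow_mul, mul_comm, pow_mul]
      exact Spow _ _ Sθq
  apply cfg.top_of_A3
  intro c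
  by_cases hc : c = 0
  · subst hc; rw [zero_smul]; exact TV.zero_left H _
  · have h1 := Sall (c * t3⁻¹) (mul_ne_zero hc (inv_ne_zero ht30))
    have h2 := h1 t3 tau
    rw [inv_mul_cancel_right₀ ht30] at h2
    exact h2

end Cfg

end FieldStep

end Cfsg.Agent.Lib.Helper16.RU2
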