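import Mathlib
import Cfsg.Agent.Lib.Helper16.RU2.Field

/-!
# The first column of `C⁻¹` in characteristic `p`

If `(C - 1)^n = 0` and `n = p^a n'` with `p ∤ n'`, the first column `y` of `C⁻¹` vanishes below
`p^a - 1`, and `y (p^a - 1) ≠ 0`.
-/

set_option autoImplicit false

namespace Cfsg.Agent.Lib.Helper16.RU2

open Matrix Cfsg.Agent.Lib.Helper99

section Frob

variable {n : ℕ} {F : Type*} [Field F]

theorem frob_coeff {p : ℕ} [Fact p.Prime] [CharP F p] (a n' : ℕ) (hpn' : ¬ p ∣ n') :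
    ∃ f : Polynomial F,
      (∀ M : Matrix (Fin n) (Fin n) F, (M - 1) ^ (p ^ a * n') = 0 → Polynomial.aeval M f = 0) ∧
      f.natDegree ≤ p ^ a * n' ∧ f.coeff 0 ≠ 0 ∧ (∀ j, j + 1 < p ^ a → f.coeff (j + 1) = 0) ∧
      f.coeff (p ^ a) ≠ 0 := by
  have hq0 : 0 < p ^ a := pow_pos (Fact.out : p.Prime).pos a
  obtain ⟨r, hr⟩ : ∃ r : F, r = (-1) ^ (p ^ a) := ⟨_, rfl⟩
  have hr0 : r ≠ 0 := by rw [hr]; exact pow_ne_zero _ (neg_ne_zero.mpr one_ne_zero)
  have hexp : ((Polynomial.X + Polynomial.C (-1 : F)) ^ (p ^ a * n') : Polynomial F) =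
      Polynomial.expand F (p ^ a) ((Polynomial.X + Polynomial.C r) ^ n') := by
    rw [pow_mul, add_pow_char_pow, ← Polynomial.C_pow, ← hr, map_pow, map_add,
      Polynomial.expand_X, Polynomial.expand_C]
  refine ⟨(Polynomial.X + Polynomial.C (-1 : F)) ^ (p ^ a * n'), ?_, ?_, ?_, ?_, ?_⟩
  · intro M hM
    rw [map_pow, map_add, Polynomial.aeval_X, Polynomial.aeval_C, map_neg, map_one,
      ← sub_eq_add_neg]
    exact hM
  · calc ((Polynomial.X + Polynomial.C (-1 : F)) ^ (p ^ a * n')).natDegree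
        ≤ (p ^ a * n') * (Polynomial.X + Polynomial.C (-1 : F)).natDegree :=
          Polynomial.natDegree_pow_le
      _ = p ^ a * n' := by rw [Polynomial.natDegree_X_add_C, mul_one]
  · rw [hexp, Polynomial.coeff_expand hq0, if_pos (dvd_zero _), Nat.zero_div,
      Polynomial.coeff_X_add_C_pow]
    simpa using pow_ne_zero n' hr0
  · intro j hj
    rw [hexp, Polynomial.coeff_expand hq0, if_neg (Nat.not_dvd_of_pos_of_lt (Nat.succ_pos j) hj)]
  · rw [hexp, Polynomial.coeff_expand hq0, if_pos (dvd_refl _), Nat.div_self hq0,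
      Polynomial.coeff_X_add_C_pow, Nat.choose_one_right]
    exact mul_ne_zero (pow_ne_zero _ hr0) ((CharP.cast_eq_zero_iff F p n').not.mpr hpn')

namespace Cfg

variable {H : Subgroup (Matrix.SpecialLinearGroup (Fin n) F)}
  {C : Matrix.SpecialLinearGroup (Fin n) F} {y : ℕ → ℤ} {θ : F} (cfg : Cfg H C y θ)

include cfg

theorem pow_col (k : ℕ) (hk : k < n) :
    ((C : Matrix (Fin n) (Fin n) F) ^ k) *ᵥ ev n F 0 = ev n F k := by
  induction k with
  | zero => rw [pow_zero, one_mulVec]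
  | succ k ih => rw [pow_succ', ← mulVec_mulVec, ih (by omega), cfg.col k hk]

theorem y_coeff (f : Polynomial F)
    (hf : Polynomial.aeval (C : Matrix (Fin n) (Fin n) F) f = 0) (hdeg : f.natDegree ≤ n)
    (j : ℕ) (hj : j < n) : f.coeff 0 * ((y j : ℤ) : F) + f.coeff (j + 1) = 0 := by
  have hn := cfg.hn
  obtain ⟨u, hu⟩ : ∃ u : Fin n → F, u =
      ((C⁻¹ : Matrix.SpecialLinearGroup (Fin n) F) : Matrix (Fin n) (Fin n) F) *ᵥ ev n F 0 :=
    ⟨_, rfl⟩
  have hCu : (C : Matrix (Fin n) (Fin n) F) *ᵥ u = ev n F 0 := by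
    rw [hu, mulVec_mulVec, ← Matrix.SpecialLinearGroup.coe_mul, mul_inv_cancel,
      Matrix.SpecialLinearGroup.coe_one, one_mulVec]
  have pu : ∀ k, k < n → ((C : Matrix (Fin n) (Fin n) F) ^ (k + 1)) *ᵥ u = ev n F k := by
    intro k hk
    rw [pow_succ, ← mulVec_mulVec, hCu, cfg.pow_col k hk]
  have uj : ev n F j ⬝ᵥ u = ((y j : ℤ) : F) := by
    rw [hu, dotProduct_mulVec, cfg.row j hj, add_dotProduct, smul_dotProduct,
      ev_dot_self (by omega), ev_dot_ne (by omega)]
    simp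
  have h1 : (Polynomial.aeval (C : Matrix (Fin n) (Fin n) F) f) *ᵥ u = 0 := by
    rw [hf, zero_mulVec]
  rw [Polynomial.aeval_eq_sum_range' (lt_of_le_of_lt hdeg (Nat.lt_succ_self n)),
    sum_mulVec] at h1
  have h2 : ev n F j ⬝ᵥ (∑ k ∈ Finset.range (n + 1),
      (f.coeff k • (C : Matrix (Fin n) (Fin n) F) ^ k) *ᵥ u) = 0 := by
    rw [h1, dotProduct_zero]
  rw [dotProduct_sum, Finset.sum_range_succ'] at h2
  have h3 : ∑ k ∈ Finset.range n, ev n F j ⬝ᵥ
      ((f.coeff (k + 1) • (C : Matrix (Fin n) (Fin n) F) ^ (k + 1)) *ᵥ u) =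
      f.coeff (j + 1) := by
    rw [Finset.sum_eq_single j]
    · rw [smul_mulVec, pu j hj, dotProduct_smul, ev_dot_self hj, smul_eq_mul, mul_one]
    · intro k hk hkj
      rw [smul_mulVec, pu k (Finset.mem_range.mp hk), dotProduct_smul, ev_dot_ne (Ne.symm hkj),
        smul_zero]
    · intro h; exact absurd (Finset.mem_range.mpr hj) h
  rw [h3, pow_zero, smul_mulVec, one_mulVec, dotProduct_smul, uj, smul_eq_mul] at h2
  rw [← h2]; ring

/-- over a finite field, with `θ` a generator of the multiplicative group, the subgroup is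
everything -/
theorem top_of_field [Fintype F] (hnil : ((C : Matrix (Fin n) (Fin n) F) - 1) ^ n = 0)
    (hgen : ∀ x : F, x ≠ 0 → ∃ k : ℕ, x = θ ^ k) : H = ⊤ := by
  have hn := cfg.hn
  obtain ⟨p, hp⟩ := CharP.exists F
  haveI := hp
  haveI : Fact p.Prime := ⟨CharP.char_is_prime F p⟩
  have hpp : p.Prime := Fact.out
  obtain ⟨a, n', hpn', hnq⟩ := Nat.exists_eq_pow_mul_and_not_dvd (n := n) (by omega) p hpp.ne_one
  have hq0 : 0 < p ^ a := pow_pos hpp.pos a
  obtain ⟨f, hf1, hf2, hf3, hf4, hf5⟩ := frob_coeff (n := n) (F := F) (p := p) a n' hpn'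
  have hfC : Polynomial.aeval (C : Matrix (Fin n) (Fin n) F) f = 0 :=
    hf1 _ (by rw [← hnq]; exact hnil)
  have hdeg : f.natDegree ≤ n := by rw [hnq]; exact hf2
  have hsurj : ∀ x : F, ∃ x' : F, x = x' ^ (p ^ a) := by
    have hinj : Function.Injective (fun x : F => x ^ (p ^ a)) := by
      intro x1 x2 h
      have h' : x1 ^ p ^ a = x2 ^ p ^ a := h
      have h1 : (x1 - x2) ^ (p ^ a) = 0 := by
        rw [sub_pow_char_pow, h', sub_self]
      exact sub_eq_zero.mp ((pow_eq_zero_iff (by omega)).mp h1)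
    intro x
    obtain ⟨x', hx'⟩ := (Finite.injective_iff_surjective.mp hinj) x
    exact ⟨x', hx'.symm⟩
  apply cfg.top_of_gen hgen (p ^ a) hsurj
  have hn'0 : n' ≠ 0 := by
    rintro rfl
    rw [mul_zero] at hnq
    omega
  by_cases h1 : n' = 1
  · left; rw [hnq, h1, mul_one]
  · right
    have h2 : 2 ≤ n' := by omega
    have hge : p ^ a * 2 ≤ n := by
      rw [hnq]; exact Nat.mul_le_mul_left (p ^ a) h2
    have hq2 : p ^ a + 2 < n := by
      by_cases h22 : p ^ a = 2
      · have hp2 : p = 2 := by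
          have ha : a ≠ 0 := by
            rintro rfl
            simp at h22
          have hd : p ∣ 2 := by rw [← h22]; exact dvd_pow_self p ha
          exact (Nat.prime_dvd_prime_iff_eq hpp Nat.prime_two).mp hd
        have h3 : n' ≠ 2 := by
          rintro rfl
          apply hpn'; rw [hp2]
        have h4 : 3 ≤ n' := by omega
        have h5 : p ^ a * 3 ≤ n := by
          rw [hnq]; exact Nat.mul_le_mul_left (p ^ a) h4
        omega
      · omega
    refine ⟨hq0, hq2, ?_, ?_⟩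
    · intro j hj
      have h3 := cfg.y_coeff f hfC hdeg j (by omega)
      rw [hf4 j hj, add_zero] at h3
      exact (mul_eq_zero.mp h3).resolve_left hf3
    · have h3 := cfg.y_coeff f hfC hdeg (p ^ a - 1) (by omega)
      rw [Nat.sub_add_cancel hq0] at h3
      intro h0
      rw [h0, mul_zero, zero_add] at h3
      exact hf5 h3

end Cfg

end Frob

end Cfsg.Agent.Lib.Helper16.RU2
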