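import Mathlib
import Cfsg.Agent.Lib.Helper16.RU2.Frob

/-!
# The companion type element and its conjugate under a transvection

`SL_n(F)`, `n ≥ 4`, is generated by the regular unipotent companion type element `C` and
`x₁₀(θ) C x₁₀(θ)⁻¹`, for `θ` a generator of the multiplicative group (any `θ ≠ 0` if `F` is a
prime field).
-/

set_option autoImplicit false

namespace Cfsg.Agent.Lib.Helper16.RU2

open Matrix Cfsg.Agent.Lib.Helper99

section Comp

variable {n : ℕ} {F : Type*} [Field F]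

theorem conj_sub_one_pow (u g : Matrix.SpecialLinearGroup (Fin n) F) (k : ℕ) :
    (((g * u * g⁻¹ : Matrix.SpecialLinearGroup (Fin n) F) : Matrix (Fin n) (Fin n) F) - 1) ^ k =
      (g : Matrix (Fin n) (Fin n) F) * ((u : Matrix (Fin n) (Fin n) F) - 1) ^ k *
        ((g⁻¹ : Matrix.SpecialLinearGroup (Fin n) F) : Matrix (Fin n) (Fin n) F) := by
  have h1 : (g : Matrix (Fin n) (Fin n) F) *
      ((g⁻¹ : Matrix.SpecialLinearGroup (Fin n) F) : Matrix (Fin n) (Fin n) F) = 1 := by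
    rw [← Matrix.SpecialLinearGroup.coe_mul, mul_inv_cancel, Matrix.SpecialLinearGroup.coe_one]
  have hI : ∀ X : Matrix (Fin n) (Fin n) F,
      ((g⁻¹ : Matrix.SpecialLinearGroup (Fin n) F) : Matrix (Fin n) (Fin n) F) *
        ((g : Matrix (Fin n) (Fin n) F) * X) = X := by
    intro X
    rw [← mul_assoc, ← Matrix.SpecialLinearGroup.coe_mul, inv_mul_cancel,
      Matrix.SpecialLinearGroup.coe_one, one_mul]
  have h3 : ((g * u * g⁻¹ : Matrix.SpecialLinearGroup (Fin n) F) :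
      Matrix (Fin n) (Fin n) F) - 1 =
      (g : Matrix (Fin n) (Fin n) F) * ((u : Matrix (Fin n) (Fin n) F) - 1) *
        ((g⁻¹ : Matrix.SpecialLinearGroup (Fin n) F) : Matrix (Fin n) (Fin n) F) := by
    rw [Matrix.SpecialLinearGroup.coe_mul, Matrix.SpecialLinearGroup.coe_mul, mul_sub, sub_mul,
      mul_one, h1]
  induction k with
  | zero => rw [pow_zero, pow_zero, mul_one, h1]
  | succ k ih =>
    rw [pow_succ, ih, h3, pow_succ]
    simp only [mul_assoc, hI]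

/-- conjugates of regular unipotent elements are regular unipotent -/
theorem ru_conj (u g : Matrix.SpecialLinearGroup (Fin n) F)
    (hu : IsNilpotent ((u : Matrix (Fin n) (Fin n) F) - 1) ∧
      ((u : Matrix (Fin n) (Fin n) F) - 1) ^ (n - 1) ≠ 0) :
    IsNilpotent (((g * u * g⁻¹ : Matrix.SpecialLinearGroup (Fin n) F) :
        Matrix (Fin n) (Fin n) F) - 1) ∧
      (((g * u * g⁻¹ : Matrix.SpecialLinearGroup (Fin n) F) :
        Matrix (Fin n) (Fin n) F) - 1) ^ (n - 1) ≠ 0 := by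
  obtain ⟨⟨k, hk⟩, h2⟩ := hu
  have h1 : ((g⁻¹ : Matrix.SpecialLinearGroup (Fin n) F) : Matrix (Fin n) (Fin n) F) *
      (g : Matrix (Fin n) (Fin n) F) = 1 := by
    rw [← Matrix.SpecialLinearGroup.coe_mul, inv_mul_cancel, Matrix.SpecialLinearGroup.coe_one]
  constructor
  · exact ⟨k, by rw [conj_sub_one_pow, hk, mul_zero, zero_mul]⟩
  · intro h
    apply h2
    rw [conj_sub_one_pow] at h
    have h3 : ((u : Matrix (Fin n) (Fin n) F) - 1) ^ (n - 1) =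
        ((g⁻¹ : Matrix.SpecialLinearGroup (Fin n) F) : Matrix (Fin n) (Fin n) F) *
          ((g : Matrix (Fin n) (Fin n) F) * ((u : Matrix (Fin n) (Fin n) F) - 1) ^ (n - 1) *
            ((g⁻¹ : Matrix.SpecialLinearGroup (Fin n) F) : Matrix (Fin n) (Fin n) F)) *
          (g : Matrix (Fin n) (Fin n) F) := by
      rw [mul_assoc (g : Matrix (Fin n) (Fin n) F), ← mul_assoc _ (g : Matrix (Fin n) (Fin n) F),
        h1, one_mul, mul_assoc, h1, mul_one]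
    rw [h3, h, mul_zero, zero_mul]

end Comp

section Companion

/-- the companion type element is conjugate to `1 +` a weighted upper shift -/
theorem cF_conj (m : ℕ) (F : Type*) [Field F] :
    ∃ (Q u : Matrix.SpecialLinearGroup (Fin (m + 3)) F) (γ : ℕ → F), (∀ k, γ k ≠ 0) ∧
      (u : Matrix (Fin (m + 3)) (Fin (m + 3)) F) = 1 + ncMat (m + 3) γ ∧
      Q * u * Q⁻¹ = cF m F := by
  classical
  obtain ⟨s, hs⟩ : ∃ s : ℤˣ, s = Equiv.Perm.sign (Fin.revPerm : Equiv.Perm (Fin (m + 3))) :=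
    ⟨_, rfl⟩
  obtain ⟨ε, hε⟩ : ∃ ε : F, ε = ((s : ℤ) : F) := ⟨_, rfl⟩
  have hεε : ε * ε = 1 := by
    rw [hε, ← Int.cast_mul, ← Units.val_mul, Int.units_mul_self, Units.val_one, Int.cast_one]
  have hε0 : ε ≠ 0 := by
    intro h; rw [h] at hεε; simp at hεε
  obtain ⟨γ, hγdef⟩ : ∃ γ : ℕ → F, γ = fun k => if k = 0 then ε else 1 := ⟨_, rfl⟩
  have hγ0 : γ 0 = ε := by rw [hγdef]; simp
  have hγ1 : ∀ k, 1 ≤ k → γ k = 1 := by
    intro k hk
    have h1 : k ≠ 0 := by omega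
    rw [hγdef]; simp [h1]
  have hγ : ∀ k, γ k ≠ 0 := by
    intro k
    rcases k with _ | k
    · rw [hγ0]; exact hε0
    · rw [hγ1 _ (by omega)]; exact one_ne_zero
  have hd : ∀ k, γ (k + 1) = γ k * γ k := by
    intro k
    rcases k with _ | k
    · rw [hγ1 _ (by omega), hγ0, hεε]
    · rw [hγ1 _ (by omega), hγ1 _ (by omega), one_mul]
  obtain ⟨u, hu⟩ : ∃ u : Matrix.SpecialLinearGroup (Fin (m + 3)) F,
      (u : Matrix (Fin (m + 3)) (Fin (m + 3)) F) = 1 + ncMat (m + 3) γ :=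
    ⟨⟨1 + ncMat (m + 3) γ, one_add_ncMat_det γ⟩, rfl⟩
  have hdetM : (adMat (m + 3) γ).det = 1 := by
    rw [adMat_det, ← hs, ← hε, Fin.prod_univ_succ]
    have h1 : ∏ i : Fin (m + 2), γ ((i.succ : Fin (m + 3)) : ℕ) = 1 := by
      apply Finset.prod_eq_one
      intro i _
      exact hγ1 _ (by simp)
    rw [h1, mul_one]
    have h2 : γ ((0 : Fin (m + 3)) : ℕ) = ε := by simpa using hγ0
    rw [h2, hεε]
  obtain ⟨M, hM⟩ : ∃ M : Matrix.SpecialLinearGroup (Fin (m + 3)) F,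
      (M : Matrix (Fin (m + 3)) (Fin (m + 3)) F) = adMat (m + 3) γ :=
    ⟨⟨adMat (m + 3) γ, hdetM⟩, rfl⟩
  obtain ⟨P, hP⟩ : ∃ P : Matrix.SpecialLinearGroup (Fin (m + 3)) F,
      P = Matrix.SpecialLinearGroup.map (Int.castRingHom F) (pzS m) := ⟨_, rfl⟩
  obtain ⟨L, hL⟩ : ∃ L : Matrix.SpecialLinearGroup (Fin (m + 3)) F,
      L = Matrix.SpecialLinearGroup.map (Int.castRingHom F) (lzS m) := ⟨_, rfl⟩
  have hMu : M * u * M⁻¹ = L := by
    rw [mul_inv_eq_iff_eq_mul]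
    apply Subtype.ext
    rw [Matrix.SpecialLinearGroup.coe_mul, Matrix.SpecialLinearGroup.coe_mul, hL, lzS_map, hM, hu]
    exact adMat_mul_ncMat γ γ hd
  have hC : (P⁻¹ * M) * u * (P⁻¹ * M)⁻¹ = cF m F := by
    have h1 : (P⁻¹ * M) * u * (P⁻¹ * M)⁻¹ = P⁻¹ * (M * u * M⁻¹) * P := by group
    rw [h1, hMu, hP, hL, cF, czS, map_mul, map_mul, map_inv]
  exact ⟨P⁻¹ * M, u, γ, hγ, hu, hC⟩

/-- the companion type element is regular unipotent -/
theorem cF_facts (m : ℕ) (F : Type*) [Field F] :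
    (IsNilpotent ((cF m F : Matrix (Fin (m + 3)) (Fin (m + 3)) F) - 1) ∧
      ((cF m F : Matrix (Fin (m + 3)) (Fin (m + 3)) F) - 1) ^ (m + 3 - 1) ≠ 0) ∧
    ((cF m F : Matrix (Fin (m + 3)) (Fin (m + 3)) F) - 1) ^ (m + 3) = 0 := by
  obtain ⟨Q, u, γ, hγ, hu, hC⟩ := cF_conj m F
  have hsub : (u : Matrix (Fin (m + 3)) (Fin (m + 3)) F) - 1 = ncMat (m + 3) γ := by
    rw [hu, add_sub_cancel_left]
  have hru : IsNilpotent ((u : Matrix (Fin (m + 3)) (Fin (m + 3)) F) - 1) ∧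
      ((u : Matrix (Fin (m + 3)) (Fin (m + 3)) F) - 1) ^ (m + 3 - 1) ≠ 0 := by
    rw [hsub]
    exact ⟨⟨m + 3, ncMat_pow_eq_zero γ⟩, ncMat_pow_ne_zero γ hγ (by omega)⟩
  rw [← hC]
  refine ⟨ru_conj u Q hru, ?_⟩
  rw [conj_sub_one_pow, hsub, ncMat_pow_eq_zero, mul_zero, zero_mul]

/-- the configuration for the closure of `C` and its conjugate under `x₁₀(θ)` -/
theorem cfg_closure (m : ℕ) (F : Type*) [Field F] (θ : F) (hθ : θ ≠ 0)
    (g : Matrix.SpecialLinearGroup (Fin (m + 1 + 3)) F)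
    (hg : (g : Matrix (Fin (m + 1 + 3)) (Fin (m + 1 + 3)) F) =
      tvm (θ • ev (m + 1 + 3) F 1) (ev (m + 1 + 3) F 0))
    (hgi : ((g⁻¹ : Matrix.SpecialLinearGroup (Fin (m + 1 + 3)) F) :
      Matrix (Fin (m + 1 + 3)) (Fin (m + 1 + 3)) F) =
      tvm ((-θ) • ev (m + 1 + 3) F 1) (ev (m + 1 + 3) F 0)) :
    Cfg (Subgroup.closure ({cF (m + 1) F, g * cF (m + 1) F * g⁻¹} :
      Set (Matrix.SpecialLinearGroup (Fin (m + 1 + 3)) F))) (cF (m + 1) F) (yF (m + 1)) θ := by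
  have hCH : cF (m + 1) F ∈ Subgroup.closure ({cF (m + 1) F, g * cF (m + 1) F * g⁻¹} :
      Set (Matrix.SpecialLinearGroup (Fin (m + 1 + 3)) F)) :=
    Subgroup.subset_closure (by simp)
  have hvH : g * cF (m + 1) F * g⁻¹ ∈ Subgroup.closure
      ({cF (m + 1) F, g * cF (m + 1) F * g⁻¹} :
      Set (Matrix.SpecialLinearGroup (Fin (m + 1 + 3)) F)) :=
    Subgroup.subset_closure (by simp)
  refine ⟨by omega, hCH, cF_col (m + 1) F, cF_row (m + 1) F, ?_, hθ, ?_⟩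
  · have h := yF_unit (m + 1)
    have e : m + 1 + 3 - 1 = m + 1 + 2 := by omega
    rw [e]; exact h
  · refine ⟨g * cF (m + 1) F * g⁻¹ * (cF (m + 1) F)⁻¹, mul_mem hvH (inv_mem hCH), ?_⟩
    rw [Matrix.SpecialLinearGroup.coe_mul, Matrix.SpecialLinearGroup.coe_mul,
      Matrix.SpecialLinearGroup.coe_mul, hg, hgi, mul_assoc, mul_assoc,
      ← mul_assoc (cF (m + 1) F : Matrix (Fin (m + 1 + 3)) (Fin (m + 1 + 3)) F), conj_tvm,
      mulVec_smul, cF_col (m + 1) F 1 (by omega), cF_row (m + 1) F 0 (by omega), neg_smul]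

theorem gen_exists (F : Type*) [Field F] [Finite F] :
    ∃ θ : F, θ ≠ 0 ∧ ∀ x : F, x ≠ 0 → ∃ k : ℕ, x = θ ^ k := by
  classical
  obtain ⟨ζ, hζ⟩ := IsCyclic.exists_generator (α := Fˣ)
  refine ⟨(ζ : F), ζ.ne_zero, ?_⟩
  intro x hx
  have h1 : Units.mk0 x hx ∈ Subgroup.zpowers ζ := hζ _
  rw [← mem_powers_iff_mem_zpowers] at h1
  obtain ⟨k, hk⟩ := h1
  refine ⟨k, ?_⟩
  have h2 := congrArg Units.val hk
  simpa using h2.symm

theorem tv_exists (m : ℕ) (F : Type*) [Field F] (θ : F) :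
    ∃ g : Matrix.SpecialLinearGroup (Fin (m + 1 + 3)) F,
      (g : Matrix (Fin (m + 1 + 3)) (Fin (m + 1 + 3)) F) =
        tvm (θ • ev (m + 1 + 3) F 1) (ev (m + 1 + 3) F 0) ∧
      ((g⁻¹ : Matrix.SpecialLinearGroup (Fin (m + 1 + 3)) F) :
        Matrix (Fin (m + 1 + 3)) (Fin (m + 1 + 3)) F) =
        tvm ((-θ) • ev (m + 1 + 3) F 1) (ev (m + 1 + 3) F 0) := by
  have h10 : (1 : Fin (m + 1 + 3)) ≠ 0 := by
    intro h; have := congrArg Fin.val h; simp at this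
  have e0 : ((0 : Fin (m + 1 + 3)) : ℕ) = 0 := rfl
  have e1 : ((1 : Fin (m + 1 + 3)) : ℕ) = 1 := Fin.val_one _
  refine ⟨Matrix.SpecialLinearGroup.transvection h10 θ, ?_, ?_⟩
  · rw [transvection_eq_tvm, e0, e1]
  · rw [Matrix.SpecialLinearGroup.transvection_inv, transvection_eq_tvm, e0, e1]

/-- two regular unipotent generators of `SL_n(F)`, `n ≥ 4`, `F` finite -/
theorem main_field (m : ℕ) (F : Type*) [Field F] [Fintype F] :
    ∃ u v : Matrix.SpecialLinearGroup (Fin (m + 1 + 3)) F,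
      (IsNilpotent ((u : Matrix (Fin (m + 1 + 3)) (Fin (m + 1 + 3)) F) - 1) ∧
        ((u : Matrix (Fin (m + 1 + 3)) (Fin (m + 1 + 3)) F) - 1) ^ (m + 1 + 3 - 1) ≠ 0) ∧
      (IsNilpotent ((v : Matrix (Fin (m + 1 + 3)) (Fin (m + 1 + 3)) F) - 1) ∧
        ((v : Matrix (Fin (m + 1 + 3)) (Fin (m + 1 + 3)) F) - 1) ^ (m + 1 + 3 - 1) ≠ 0) ∧
      Subgroup.closure ({u, v} : Set (Matrix.SpecialLinearGroup (Fin (m + 1 + 3)) F)) = ⊤ := by
  obtain ⟨θ, hθ0, hgen⟩ := gen_exists F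
  obtain ⟨g, hg, hgi⟩ := tv_exists m F θ
  have cfg := cfg_closure m F θ hθ0 g hg hgi
  obtain ⟨hru, hnil⟩ := cF_facts (m + 1) F
  exact ⟨cF (m + 1) F, g * cF (m + 1) F * g⁻¹, hru, ru_conj _ g hru,
    cfg.top_of_field hnil hgen⟩

/-- two conjugate regular unipotent generators of `SL_n(F)`, `n ≥ 4`, `F` a prime field -/
theorem main_prime (m : ℕ) (F : Type*) [Field F] [Fintype F] (hp : (Fintype.card F).Prime) :
    ∃ u g : Matrix.SpecialLinearGroup (Fin (m + 1 + 3)) F,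
      (IsNilpotent ((u : Matrix (Fin (m + 1 + 3)) (Fin (m + 1 + 3)) F) - 1) ∧
        ((u : Matrix (Fin (m + 1 + 3)) (Fin (m + 1 + 3)) F) - 1) ^ (m + 1 + 3 - 1) ≠ 0) ∧
      Subgroup.closure ({u, g * u * g⁻¹} :
        Set (Matrix.SpecialLinearGroup (Fin (m + 1 + 3)) F)) = ⊤ := by
  obtain ⟨g, hg, hgi⟩ := tv_exists m F (1 : F)
  have cfg := cfg_closure m F (1 : F) one_ne_zero g hg hgi
  obtain ⟨hru, -⟩ := cF_facts (m + 1) F
  exact ⟨cF (m + 1) F, g, hru, cfg.top_of_prime hp⟩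

end Companion

end Cfsg.Agent.Lib.Helper16.RU2
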